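import Mathlib.Algebra.Module.PID
import Cfsg.Agent.H886.Inv.LU

/-!
# Unipotent endomorphisms are inverted by involutions (S4171, row PSL)
-/

set_option autoImplicit false

universe u w

namespace Cfsg.Agent.H886.Inv

open Polynomial Module Cfsg.Agent.H141.Ore

/-- inverted by an involution, for modules over `F[X]` -/
def QInv {F : Type u} [Field F] (M : Type*) [AddCommGroup M] [Module F[X] M] : Prop :=
  ∃ s : M →+ M, (∀ m, s (s m) = m) ∧ (∀ (a : F) (m : M), s ((C a : F[X]) • m) = (C a : F[X]) • s m) ∧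
    (∀ m, s ((X : F[X]) • s ((X : F[X]) • m)) = m)

theorem QInv.congr {F : Type u} [Field F] {M N : Type*} [AddCommGroup M] [Module F[X] M]
    [AddCommGroup N] [Module F[X] N] (e : M ≃ₗ[F[X]] N) (h : QInv (F := F) N) :
    QInv (F := F) M := by
  obtain ⟨s, h1, h2, h3⟩ := h
  refine ⟨(e.symm.toLinearMap.toAddMonoidHom.comp s).comp e.toLinearMap.toAddMonoidHom, ?_, ?_, ?_⟩
  · intro m
    simp [h1]
  · intro a m
    simp [h2]
  · intro m
    simp [h3]

theorem QInv.directSum {F : Type u} [Field F] {ι : Type*} [DecidableEq ι] (M : ι → Type*)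
    [∀ i, AddCommGroup (M i)] [∀ i, Module F[X] (M i)] (h : ∀ i, QInv (F := F) (M i)) :
    QInv (F := F) (DirectSum ι M) := by
  choose s h1 h2 h3 using h
  refine ⟨DirectSum.map s, ?_, ?_, ?_⟩
  · intro m
    ext i
    simp [h1]
  · intro a m
    ext i
    rw [DirectSum.map_apply, DirectSum.smul_apply, DirectSum.smul_apply, DirectSum.map_apply, h2]
  · intro m
    ext i
    rw [DirectSum.map_apply, DirectSum.smul_apply, DirectSum.map_apply, DirectSum.smul_apply, h3]

theorem QInv.cyclic {F : Type u} [Field F] (k : ℕ) :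
    QInv (F := F) (F[X] ⧸ (Submodule.span F[X] {(X - C (1 : F)) ^ k})) := by
  let I : Ideal F[X] := Ideal.span {(X - C (1 : F)) ^ k}
  change QInv (F := F) (F[X] ⧸ I)
  set x : F[X] ⧸ I := Ideal.Quotient.mk I X with hx
  have hx1 : (x - 1) ^ k = 0 := by
    have : (x - 1) ^ k = Ideal.Quotient.mk I ((X - C (1 : F)) ^ k) := by
      rw [map_pow, map_sub, map_one, map_one]
    rw [this, Ideal.Quotient.eq_zero_iff_mem]
    exact Ideal.mem_span_singleton_self _
  have hu : IsUnit x := by
    have h1 : IsNilpotent (x - 1) := ⟨k, hx1⟩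
    have h2 := h1.isUnit_one_add
    rwa [add_sub_cancel] at h2
  obtain ⟨y, hxy⟩ := hu.exists_right_inv
  have hy1 : (y - 1) ^ k = 0 := by
    have : y - 1 = (-y) * (x - 1) := by linear_combination hxy
    rw [this, mul_pow, hx1, mul_zero]
  have hI : ∀ a ∈ I, (aeval y : F[X] →ₐ[F] F[X] ⧸ I) a = 0 := by
    intro a ha
    obtain ⟨b, rfl⟩ := Ideal.mem_span_singleton'.1 ha
    rw [map_mul, map_pow, map_sub, aeval_X, aeval_C, map_one, hy1, mul_zero]
  let σ : (F[X] ⧸ I) →ₐ[F] (F[X] ⧸ I) := Ideal.Quotient.liftₐ I (aeval y) hI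
  have hσx : σ x = y := by
    show (aeval y) (X : F[X]) = y
    exact aeval_X y
  have hσy : σ y = x := by
    have h1 : y * σ y = 1 := by rw [← hσx, ← map_mul, hσx, hxy, map_one]
    calc σ y = (x * y) * σ y := by rw [hxy, one_mul]
      _ = x * (y * σ y) := by ring
      _ = x := by rw [h1, mul_one]
  have hσσ : ∀ m, σ (σ m) = m := by
    have : σ.comp σ = AlgHom.id F _ := by
      apply Ideal.Quotient.algHom_ext
      apply Polynomial.algHom_ext
      show σ (σ x) = x
      rw [hσx, hσy]
    intro m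
    exact AlgHom.congr_fun this m
  have hC : ∀ (a : F) (m : F[X] ⧸ I), (C a : F[X]) • m = algebraMap F _ a * m := by
    intro a m
    obtain ⟨b, rfl⟩ := Ideal.Quotient.mk_surjective m
    rfl
  have hX : ∀ (m : F[X] ⧸ I), (X : F[X]) • m = x * m := by
    intro m
    obtain ⟨b, rfl⟩ := Ideal.Quotient.mk_surjective m
    rfl
  refine ⟨σ.toRingHom.toAddMonoidHom, ?_, ?_, ?_⟩
  · intro m
    exact hσσ m
  · intro a m
    show σ ((C a : F[X]) • m) = (C a : F[X]) • σ m
    rw [hC, hC, map_mul, AlgHom.commutes]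
  · intro m
    show σ ((X : F[X]) • σ ((X : F[X]) • m)) = m
    rw [hX, hX, map_mul, map_mul, map_mul, hσx, hσy, hσσ]
    calc y * (x * m) = (x * y) * m := by ring
      _ = m := by rw [hxy, one_mul]

theorem unip_inv {F : Type u} [Field F] {V : Type w} [AddCommGroup V] [Module F V]
    [FiniteDimensional F V] (B : Module.End F V) (hB : IsNilpotent (B - 1)) :
    ∃ s : Module.End F V, s * s = 1 ∧ (s * B) * (s * B) = 1 := by
  obtain ⟨k, hk⟩ := (nilp_iff_aeval B).1 hB
  have hirr : Irreducible (X - C (1 : F)) := Polynomial.irreducible_X_sub_C 1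
  have htor : Module.IsTorsion' (AEval' B) (Submonoid.powers (X - C (1 : F))) := by
    intro x
    refine ⟨⟨(X - C (1 : F)) ^ k, k, rfl⟩, ?_⟩
    obtain ⟨v, rfl⟩ := (AEval'.of B).surjective x
    show ((X - C (1 : F)) ^ k) • (AEval'.of B v) = 0
    rw [← AEval.of_aeval_smul]
    have := hk v
    rw [Module.End.smul_def, this, map_zero]
  obtain ⟨d, f, ⟨e⟩⟩ := Module.torsion_by_prime_power_decomposition hirr htor
  obtain ⟨s, h1, h2, h3⟩ : QInv (F := F) (AEval' B) :=
    QInv.congr e (QInv.directSum _ fun i => QInv.cyclic (f i))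
  let o := AEval'.of B
  let t : Module.End F V :=
    { toFun := fun v => o.symm (s (o v))
      map_add' := fun v w => by rw [map_add, map_add, map_add]
      map_smul' := fun a v => by
        rw [RingHom.id_apply, ← map_smul]
        congr 1
        have := h2 a (o v)
        rw [AEval.C_smul, AEval.C_smul] at this
        rw [map_smul, this] }
  have ht : ∀ v, t v = o.symm (s (o v)) := fun v => rfl
  refine ⟨t, ?_, ?_⟩
  · ext v
    show t (t v) = v
    rw [ht, ht, LinearEquiv.apply_symm_apply, h1, LinearEquiv.symm_apply_apply]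
  · ext v
    show t (B (t (B v))) = v
    have hX : ∀ w, o (B w) = (X : F[X]) • o w := fun w => (AEval'.X_smul_of B w).symm
    rw [ht, ht, hX, LinearEquiv.apply_symm_apply, hX, h3, LinearEquiv.symm_apply_apply]

/-- the inverting involution has determinant `±1` -/
theorem det_of_sq {F : Type u} [Field F] {V : Type w} [AddCommGroup V] [Module F V]
    (s : Module.End F V) (h : s * s = 1) : LinearMap.det s = 1 ∨ LinearMap.det s = -1 := by
  have h1 : LinearMap.det s * LinearMap.det s = 1 := by rw [← map_mul, h, map_one]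
  exact mul_self_eq_one_iff.1 h1

end Cfsg.Agent.H886.Inv
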